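import Cfsg.Agent.TH.Spor.InOne
import Cfsg.Agent.FP3.Defs

/-!
# N2 (S3519), the sporadic rows: the sizes of the rational classes (helper26)

* `KapT T t m` : the type `t` has at most `m` times as many elements as the rational class of each of its elements;
* `Kap T L` : this with `m = 1` for all the types which are not in the list `L` of the pairs `(t, m)`;
* `Kap.fx` : the bound for the number of the fixed cosets.
-/

set_option autoImplicit false

namespace Cfsg.Agent.N2.SpK

open Cfsg Cfsg.Agent.TAB Cfsg.Agent.TAB.Eng Cfsg.Agent.TAB.Use Cfsg.Agent.TH.Spor Cfsg.Agent.FP3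
open Subgroup (centralizer)

universe u v

variable {G : Type u} [Group G] {D : Dat} {T : TD G D}

/-- the elements of the type of `x` which are conjugate to a power of `x` -/
def RC (T : TD G D) (x : G) : Type u := {y : G // T.ty y = T.ty x ∧ ∃ k : ℕ, IsConj (x ^ k) y}

/-- the rational classes in the type `t` are large -/
def KapT (T : TD G D) (t m : ℕ) : Prop := ∀ x, T.ty x = t → D.cnt t ≤ m * Nat.card (RC T x)

/-- the multiplier of the type `t` -/
def mu : List (ℕ × ℕ) → ℕ → ℕ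
  | [], _ => 1
  | p :: l, t => if p.1 = t then p.2 else mu l t

theorem mu_realised : True := by have := @mu.eq_def; trivial

/-- all the types -/
def Kap (T : TD G D) (L : List (ℕ × ℕ)) : Prop := ∀ t < D.n, KapT T t (mu L t)

/-- **the table with the multipliers** -/
def InK (K : Type u) [Group K] (D : Dat) (R : Rows) (L : List (ℕ × ℕ)) : Prop :=
  ∃ T : TD K D, T.Mass ∧ Tab T R ∧ Unif T ∧ Kap T L

/-- the type `t` is one rational class -/
def RatT (T : TD G D) (t : ℕ) : Prop := ∀ g h, T.ty g = t → T.ty h = t → ∃ k : ℕ, IsConj (g ^ k) h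

theorem finite_RC [Finite G] (x : G) : Finite (RC T x) := Subtype.finite

theorem card_RC_mul [Finite G] (A : Subgroup G) (a : G) :
    Nat.card (RC T a) * fx A a ≤ A.index * Nat.card {b : A // T.ty b = T.ty a} := by
  have h1 : ∀ y : RC T a, ∃ (k : ℕ) (c : G), c * a ^ k * c⁻¹ = y.1 := fun y => by
    obtain ⟨k, hk⟩ := y.2.2
    exact ⟨k, isConj_iff.1 hk⟩
  choose k c hc using h1
  have h2 : ∀ (y : RC T a) (q : MulAction.fixedBy (G ⧸ A) a), (c y • q.1).out⁻¹ * y.1 * (c y • q.1).out ∈ A :=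
    fun y q => by
      have h4 : a ^ k y • q.1 = q.1 := (MulAction.stabilizer G q.1).pow_mem q.2 _
      have h3 : y.1 • c y • q.1 = c y • q.1 := by
        rw [← hc, smul_smul, inv_mul_cancel_right, mul_smul, h4]
      rw [mul_assoc, ← QuotientGroup.eq, QuotientGroup.out_eq', ← smul_eq_mul, MulAction.Quotient.mk_smul_out, h3]
  show _ * Nat.card (MulAction.fixedBy (G ⧸ A) a) ≤ Nat.card (G ⧸ A) * _
  rw [← Nat.card_prod, ← Nat.card_prod]
  refine Nat.card_le_card_of_injective (fun p => (c p.1 • p.2.1, ⟨⟨_, h2 p.1 p.2⟩, ?_⟩)) ?_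
  · have h3 := T.conj p.1.1 (c p.1 • p.2.1).out⁻¹
    rw [inv_inv] at h3
    exact h3.trans p.1.2.1
  · rintro ⟨y, q⟩ ⟨y', q'⟩ h
    obtain ⟨h3, h4⟩ := Prod.mk.inj h
    have h5 : (c y • q.1).out⁻¹ * y.1 * (c y • q.1).out = (c y' • q'.1).out⁻¹ * y'.1 * (c y' • q'.1).out :=
      congrArg (fun z => z.1.1) h4
    dsimp only at h3
    rw [h3, mul_left_inj, mul_right_inj] at h5
    obtain rfl : y = y' := Subtype.ext h5
    exact Prod.ext rfl (Subtype.ext (smul_left_cancel _ h3))

/-- **the fixed cosets** -/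
theorem KapT.fx [Finite G] {t m : ℕ} (h : KapT T t m) (A : Subgroup G) {a : G} (ha : T.ty a = t) :
    D.cnt t * fx A a ≤ m * (A.index * Nat.card {b : A // T.ty b = t}) := by
  subst ha
  refine (Nat.mul_le_mul_right _ (h a rfl)).trans ?_
  rw [mul_assoc]
  exact Nat.mul_le_mul_left _ (card_RC_mul A a)

theorem Kap.fx [Finite G] {L : List (ℕ × ℕ)} (h : Kap T L) (A : Subgroup G) (a : G) :
    D.cnt (T.ty a) * fx A a ≤ mu L (T.ty a) * (A.index * Nat.card {b : A // T.ty b = T.ty a}) :=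
  (h _ (T.lt a)).fx A rfl

theorem KapT.mono {t m m' : ℕ} (h : KapT T t m) (hm : m ≤ m') : KapT T t m' :=
  fun x hx => (h x hx).trans (Nat.mul_le_mul_right _ hm)

theorem RatT.kap [Finite G] (hm : T.Mass) {t : ℕ} (h : RatT T t) : KapT T t 1 := fun x hx => by
  have := finite_RC (T := T) x
  rw [one_mul, ← hm.2 t (hx ▸ T.lt x)]
  exact Nat.card_le_card_of_injective (β := RC T x) (fun y => ⟨y.1, y.2.trans hx.symm, h x y hx y.2⟩)
    fun _ _ e => Subtype.ext (congrArg Subtype.val e :)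

/-- the converse -/
theorem KapT.rat [Finite G] (hm : T.Mass) {t : ℕ} (h : KapT T t 1) : RatT T t := fun x y hx hy => by
  have h1 := h x hx
  rw [one_mul, ← hm.2 t (hx ▸ T.lt x)] at h1
  have h2 : Function.Bijective fun z : RC T x => (⟨z.1, z.2.1.trans hx⟩ : {g // T.ty g = t}) :=
    (Function.Injective.bijective_of_nat_card_le (fun _ _ e => Subtype.ext (congrArg Subtype.val e :)) h1)
  obtain ⟨z, hz⟩ := h2.2 ⟨y, hy⟩
  obtain rfl : z.1 = y := congrArg Subtype.val hz
  exact z.2.2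

theorem RatT.of_one [Finite G] (hm : T.Mass) {t : ℕ} (h : One T t) : RatT T t :=
  fun _ _ hg hg' => ⟨1, by rw [pow_one]; exact h.conj hm hg hg'⟩

theorem RatT.of_unif (h : Unif T) {t : ℕ} (ht : (D.ord t).Prime) : RatT T t :=
  fun g g' hg hg' => h g g' (by rwa [T.ord, hg]) (hg.trans hg'.symm)

theorem KapT.of_le [Finite G] (hm : T.Mass) {t m U : ℕ}
    (h : ∀ x, T.ty x = t → Nat.card (centralizer ({x} : Set G)) ≤ U) (h0 : 0 < U) (hU : D.cnt t * U ≤ m * D.N) :
    KapT T t m := fun x hx => by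
  have := finite_RC (T := T) x
  have h1 : Nat.card {g : G // IsConj x g} ≤ Nat.card (RC T x) :=
    Nat.card_le_card_of_injective (β := RC T x) (fun y => ⟨y.1, TD.ty_isConj y.2, 1, by rw [pow_one]; exact y.2⟩)
      fun _ _ e => Subtype.ext (congrArg Subtype.val e :)
  refine Nat.le_of_mul_le_mul_right (hU.trans ?_) h0
  rw [← hm.1, ← card_class x, mul_assoc]
  exact Nat.mul_le_mul_left _ (Nat.mul_le_mul h1 (h x hx))

theorem KapT.of_bnd [Finite G] (hm : T.Mass) {t m U : ℕ} (h : Bnd T t U) (h0 : 0 < U) (hU : D.cnt t * U ≤ m * D.N) :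
    KapT T t m :=
  KapT.of_le hm (fun x hx => Nat.le_of_dvd h0 (h x hx)) h0 hU

theorem kap_of_rat [Finite G] (hm : T.Mass) (h : ON.Rat T) : Kap T [] :=
  fun _ _ => RatT.kap hm fun g g' hg hg' => h g g' (hg.trans hg'.symm)

theorem Kap.rat [Finite G] (hm : T.Mass) (h : Kap T []) : ON.Rat T :=
  fun g g' e => (h _ (T.lt g)).rat hm g g' rfl e.symm

/-- the types outside the list are rational classes -/
theorem kap_of {L : List (ℕ × ℕ)} (h1 : ∀ p ∈ L, KapT T p.1 p.2) (h2 : ∀ t < D.n, t ∉ L.map Prod.fst → KapT T t 1) :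
    Kap T L := by
  intro t ht
  have key : ∀ L' : List (ℕ × ℕ), (∀ p ∈ L', KapT T p.1 p.2) → (t ∉ L'.map Prod.fst → KapT T t 1) →
      KapT T t (mu L' t) := fun L' => by
    induction L' with
    | nil => exact fun _ h => h List.not_mem_nil
    | cons p l ih =>
      intro h3 h4
      rw [mu]
      split_ifs with h5
      · exact h5 ▸ h3 p List.mem_cons_self
      · exact ih (fun q hq => h3 q (List.mem_cons_of_mem _ hq)) fun h6 => h4 fun h7 =>
          (List.mem_cons.1 h7).elim (fun h8 => h5 h8.symm) h6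
  exact key L h1 (h2 t ht)

section

variable {K : Type v} [Group K] {R : Rows} {L : List (ℕ × ℕ)}

theorem KapT.pull {t m : ℕ} (h : KapT T t m) (e : K ≃* G) : KapT (T.pull e) t m := fun x hx => by
  refine (h (e x) hx).trans (le_of_eq (congrArg _ (Nat.card_congr (e.toEquiv.subtypeEquiv fun g => ?_)).symm))
  refine and_congr_right fun _ => exists_congr fun k => ⟨fun h1 => ?_, fun h1 => ?_⟩
  · simpa using e.toMonoidHom.map_isConj h1
  · simpa using e.symm.toMonoidHom.map_isConj h1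

theorem InK.of_equiv (h : InK G D R L) (e : K ≃* G) : InK K D R L := by
  obtain ⟨T, h1, h2, h3, h4⟩ := h
  exact ⟨T.pull e, mass_pull h1 e, tab_pull h2 e, h3.pull e, fun t ht => (h4 t ht).pull e⟩

theorem InK.in (h : InK G D R L) : In G D R := by
  obtain ⟨T, h1, h2, h3, -⟩ := h
  exact ⟨T, h1, h2, h3⟩

theorem finite_of_mass (hm : T.Mass) (h : D.N ≠ 0) : Finite G := Nat.finite_of_card_ne_zero (hm.1 ▸ h)

theorem inK_of_rat (hN : D.N ≠ 0) (h : ∃ T : TD G D, T.Mass ∧ ON.Rat T ∧ Tab T R) : InK G D R [] := by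
  obtain ⟨T, h1, h2, h3⟩ := h
  have := finite_of_mass h1 hN
  exact ⟨T, h1, h3, unif_of_rat h2, kap_of_rat h1 h2⟩

end

end Cfsg.Agent.N2.SpK
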