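import Cfsg.Agent.N2.SpK.Mul

/-!
# N2 (S3519), the sporadic rows: the multipliers from the bounds (helper26)
-/

set_option autoImplicit false

namespace Cfsg.Agent.N2.SpK

open Cfsg Cfsg.Agent.TAB Cfsg.Agent.TAB.Eng Cfsg.Agent.TAB.Use Cfsg.Agent.TH.Spor

universe u

variable {G : Type u} [Group G] {D : Dat} {T : TD G D}

/-- the type is known as a rational class -/
noncomputable def isR (D : Dat) (V X : List ℕ) (t : ℕ) : Bool := ex D V t || decide (t ∈ X) || isPr (D.ord t)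

theorem rat_of_isR [Finite G] (hm : T.Mass) (hI : Inh T) (hU : Unif T) {V X : List ℕ} (hV : Bnds T V)
    (hX : ∀ t ∈ X, RatT T t) {t : ℕ} (h : isR D V X t = true) : RatT T t := by
  rw [isR, Bool.or_eq_true, Bool.or_eq_true, decide_eq_true_eq] at h
  rcases h with (h | h) | h
  exacts [RatT.of_one hm (hV.one hm.1 hI h), hX t h, RatT.of_unif hU (isPr_spec h)]

/-- the steps `(t, p, e)` -/
noncomputable def syls (D : Dat) (V : List ℕ) (κ : List ℕ → Bool) (S : List (ℕ × ℕ × ℕ)) : List ℕ → Bool :=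
  List.rec κ (fun s _ ih X => cond (isPr s.2.1 && D.ord s.1 == D.ord s.1 / s.2.1 ^ s.2.2 * s.2.1 ^ s.2.2 &&
    D.ord s.1 / s.2.1 ^ s.2.2 % s.2.1 != 0 && isR D V X (D.pwf s.1 (s.2.1 ^ s.2.2)) &&
    ntd V 0 (D.pwf s.1 (s.2.1 ^ s.2.2)) % s.2.1 ^ (s.2.2 + 1) != 0) (ih (s.1 :: X)) false) S

theorem syls_spec [Finite G] (hm : T.Mass) (hI : Inh T) (hU : Unif T) {V : List ℕ} (hV : Bnds T V)
    {κ : List ℕ → Bool} (S : List (ℕ × ℕ × ℕ)) : ∀ {X : List ℕ}, (∀ t ∈ X, RatT T t) → syls D V κ S X = true →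
      ∃ X', (∀ t ∈ X', RatT T t) ∧ κ X' = true := by
  induction S with
  | nil => exact fun hX h => ⟨_, hX, h⟩
  | cons s S ih =>
    intro X hX h
    obtain ⟨h1, h2⟩ := cond_ff h
    simp only [Bool.and_eq_true, beq_iff_eq, bne_iff_ne] at h1
    obtain ⟨⟨⟨⟨h3, h4⟩, h5⟩, h6⟩, h7⟩ := h1
    exact ih (List.forall_mem_cons.2 ⟨RatT.syl (isPr_spec h3) h4 (fun h8 => h5 (Nat.mod_eq_zero_of_dvd h8)) rfl
      (rat_of_isR hm hI hU hV hX h6) fun y hy h8 => h7 (Nat.mod_eq_zero_of_dvd (h8.trans (hV _ y hy))), hX⟩) h2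

/-- **the check** -/
noncomputable def okA (D : Dat) (V X : List ℕ) (S : List (ℕ × ℕ × ℕ)) (Y L : List (ℕ × ℕ)) : Bool :=
  frcL V fun V' => syls D V' (fun X' => allL (fun t => Nat.blt 0 (mu L t) && (isR D V' X' t || decide ((t, mu L t) ∈ Y) ||
    Nat.blt 0 (ntd V' 0 t) && Nat.ble (D.cnt t * ntd V' 0 t) (mu L t * D.N))) (List.range D.n)) S X

/-- **the multipliers** -/
theorem kap_of_bnds [Finite G] (hm : T.Mass) (hI : Inh T) (hU : Unif T) {V X : List ℕ} (hV : Bnds T V)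
    (hX : ∀ t ∈ X, RatT T t) (S : List (ℕ × ℕ × ℕ)) {Y : List (ℕ × ℕ)} (hY : ∀ p ∈ Y, KapT T p.1 p.2)
    {L : List (ℕ × ℕ)} (h : okA D V X S Y L = true) : Kap T L := by
  rw [okA, frcL_eq] at h
  obtain ⟨X', h1, h2⟩ := syls_spec hm hI hU hV S hX h
  intro t ht
  have h3 := allL_spec h2 t (List.mem_range.2 ht)
  rw [Bool.and_eq_true, Nat.blt_eq, Bool.or_eq_true, Bool.or_eq_true, decide_eq_true_eq, Bool.and_eq_true, Nat.blt_eq,
    Nat.ble_eq] at h3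
  rcases h3.2 with (h4 | h4) | h4
  exacts [((rat_of_isR hm hI hU hV h1 h4).kap hm).mono h3.1, hY _ h4, KapT.of_bnd hm (hV t) h4.1 h4.2]

end Cfsg.Agent.N2.SpK
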