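import Cfsg.Agent.N2.SpK.Asm
import Cfsg.Agent.TH.Spor.EngC

/-!
# N2 (S3519), the sporadic rows: the check of the bounds with the columns of the table (helper26)
-/

set_option autoImplicit false

namespace Cfsg.Agent.N2.SpK

open Cfsg Cfsg.Agent.TAB Cfsg.Agent.TAB.Eng Cfsg.Agent.TAB.Use Cfsg.Agent.TH.Spor Cfsg.Agent.TwoF.SpO

universe u

variable {G : Type u} [Group G] {D : Dat} {T : TD G D}

/-- `∑ z_i a_i b_i` -/
noncomputable def dot3 (z : List ℤ) : List ℤ → List ℤ → ℤ :=
  List.rec (fun _ _ => 0) (fun c _ ih a b => List.rec 0 (fun x a' _ => List.rec 0 (fun y b' _ =>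
    frcZ (ih a' b') fun h => Int.add (Int.mul c (Int.mul x y)) h) b) a) z

theorem dot3_eq (s t : ℕ) (z : List ℤ) : ∀ W : List (List ℤ),
    dot3 z (W.map fun w => nth w s) (W.map fun w => nth w t) = sumP s t z W := by
  induction z with
  | nil => exact fun _ => rfl
  | cons c z ih =>
    rintro (_ | ⟨w, W⟩)
    · rfl
    · exact (frcZ_eq _ _).trans ((congrArg (Int.add _) (ih W)).trans (frcZ_eq _ _).symm)

theorem ntd_trp (W : List (List ℤ)) {n t : ℕ} (h : t < n) : ntd (trp W n) [] t = W.map fun w => nth w t := by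
  rw [ntd_eq _ _ (by rw [trp_eq, List.length_map, List.length_range']; exact h)]
  simp only [trp_eq, List.getElem_map, List.getElem_range', zero_add, one_mul]
  rfl

/-- one step -/
noncomputable def stpF (D : Dat) (cA cB C : List (List ℤ)) (Z : List (ℕ × List ℤ × ℕ)) (U : List ℕ)
    (κ : ℕ → ℕ → Bool) (s : St) : Bool :=
  St.rec
    (fun t c s => frc (ntd Z (0, [], 0) c).1 fun lv => cond (Nat.blt t D.n)
      (cond (Nat.blt s D.n && (Nat.beq lv 0 || ex D U s) && allL (fun w => decide (nth w s = 0)) (lvC C lv))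
        (κ t (Nat.gcd (ntd U 0 t) ((Int.mul D.N (dot3 (ntd Z (0, [], 0) c).2.1 (ntd (cond (Nat.beq lv 0) cA cB) [] t)
          (ntd (cond (Nat.beq lv 0) cA cB) [] s))).natAbs / (ntd Z (0, [], 0) c).2.2))) false) false)
    (fun t k => stp D [] [] [] [] U κ (.pw t k)) (fun t l a e => stp D [] [] [] [] U κ (.ds t l a e)) s

theorem stp_of_F {A AB C : List (List ℤ)} {Z : List (ℕ × List ℤ × ℕ)} {U : List ℕ} {κ : ℕ → ℕ → Bool} {s : St}
    (h : stpF D (trp A D.n) (trp AB D.n) C Z U κ s = true) : stp D A AB C Z U κ s = true := by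
  cases s with
  | cm t c s =>
    unfold stpF at h
    unfold stp
    dsimp only at h ⊢
    rw [frc_eq] at h ⊢
    obtain ⟨h1, h2⟩ := cond_ff h
    obtain ⟨h3, h4⟩ := cond_ff h2
    have h5 := h3
    rw [Bool.and_eq_true, Bool.and_eq_true] at h5
    rw [h3, cond_true, ← dot3_eq, ← ntd_trp _ (Nat.blt_eq ▸ h1 :), ← ntd_trp _ (Nat.blt_eq ▸ h5.1.1 :)]
    revert h4
    cases Nat.beq (ntd Z (0, [], 0) c).1 0 <;> exact id
  | pw t k => exact h
  | ds t l a e => exact h

/-- all the steps -/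
noncomputable def runF (D : Dat) (cA cB C : List (List ℤ)) (Z : List (ℕ × List ℤ × ℕ)) (κ : List ℕ → Bool)
    (L : List St) : List ℕ → Bool :=
  List.rec κ (fun s _ ih U => stpF D cA cB C Z U (fun t v => frc v fun v' => frcL (U.set t v') ih) s) L

/-- **the check** -/
noncomputable def chkF (D : Dat) (A B C : List (List ℤ)) (cs : List (ℕ × List (ℤ × ℕ))) (L : List St)
    (U V : List ℕ) : Bool :=
  Glue.frcM A fun A' => Glue.frcM B fun B' => Glue.frcM C fun C' => Glue.frcM (trp A' D.n) fun cA =>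
    Glue.frcM (trp (A' ++ B') D.n) fun cB => allC D A' B' C' cs fun Z =>
      frcL U (runF D cA cB C' Z (fun U' => decide (U' = V)) L)

/-- **bounds for the centralizers** -/
theorem bnd_runF [Fintype G] (hN : Nat.card G = D.N) (hI : Inh T) {A B C : List (List ℤ)} (H : Rw T A B C)
    {cs : List (ℕ × List (ℤ × ℕ))} {L : List St} {U V : List ℕ} (hU : Bnds T U)
    (h : chkF D A B C cs L U V = true) : Bnds T V := by
  rw [chkF, Glue.frcM_eq, Glue.frcM_eq, Glue.frcM_eq, Glue.frcM_eq, Glue.frcM_eq, allC_eq, frcL_eq] at h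
  generalize hZ : (cs.map fun c => (c.1, cz D A B C c, cM D A B C c (cz D A B C c))) = Z at h
  induction L generalizing U with
  | nil => exact of_decide_eq_true h ▸ hU
  | cons s L ih =>
    have h0 := stp_of_F (show stpF D _ _ C Z U (fun t v => frc v fun v' => frcL (U.set t v')
      (runF D (trp A D.n) (trp (A ++ B) D.n) C Z (fun U' => decide (U' = V)) L)) s = true from h)
    rw [← hZ] at h0
    obtain ⟨t, v, h1, h2⟩ := stp_spec hN hI H hU h0
    rw [hZ, frc_eq, frcL_eq] at h2
    exact ih (hU.set h1) h2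

end Cfsg.Agent.N2.SpK
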