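import Cfsg.Agent.N2.SpK.Orth

/-!
# N2 (S3519), the sporadic rows: bounds for the centralizers from the class multiplication (helper26)

`bnd_run` : the number of the conjugates `x'` of `x` with `x' y` of a given type is an integer.  If `y` lies in a
single class, then all the rows of the table can be used.
-/

set_option autoImplicit false

namespace Cfsg.Agent.N2.SpK

open Cfsg Cfsg.Agent.TAB Cfsg.Agent.TAB.Eng Cfsg.Agent.TAB.Use Cfsg.Agent.TH.Spor Cfsg.Agent.TwoF.SpO
open Subgroup (centralizer)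

universe u

variable {G : Type u} [Group G] {D : Dat} {T : TD G D}

theorem sum_accP' [Fintype G] (x y : G) (z : List ℤ) : ∀ (W : List (List ℤ)) (V : List ℤ),
    (∀ w ∈ W, SumAt T w y) → V.length = D.n → ∑ a, nth (accP z W V) (T.ty (a * x * a⁻¹ * y)) =
      ∑ a, nth V (T.ty (a * x * a⁻¹ * y)) + Nat.card G * sumP (T.ty x) (T.ty y) z W := by
  induction z with
  | nil => exact fun W V _ _ => (add_zero _).symm.trans (congrArg _ (mul_zero _).symm)
  | cons c z ih =>
    intro W V hW hV
    cases W with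
    | nil => exact (add_zero _).symm.trans (congrArg _ (mul_zero _).symm)
    | cons w W =>
      have e1 : accP (c :: z) (w :: W) V = accP z W (axz (c * nth w 0) V w) :=
        (frcZ_eq (c * nth w 0) fun p => frcLZ (axz p V w) fun V' => accP z W V').trans (frcLZ_eq _ _)
      have e2 : sumP (T.ty x) (T.ty y) (c :: z) (w :: W) =
          c * (nth w (T.ty x) * nth w (T.ty y)) + sumP (T.ty x) (T.ty y) z W := frcZ_eq _ _
      rw [e1, e2, ih W _ (fun v hv => hW v (List.mem_cons_of_mem _ hv)) ((length_axz _ _ _).trans hV),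
        Finset.sum_congr rfl fun a _ => nth_axz _ _ _ (hV ▸ T.lt _), Finset.sum_add_distrib]
      simp only [mul_assoc c]
      rw [← Finset.mul_sum, hW w List.mem_cons_self x]
      ring

/-- `V + ∑ f(c) c` -/
noncomputable def acc0 (f : List ℤ → ℤ) (C : List (List ℤ)) : List ℤ → List ℤ :=
  List.rec (fun V => V) (fun w _ ih V => frcZ (f w) fun p => frcLZ (axz p V w) ih) C

theorem sum_acc0 [Fintype G] (x y : G) (f : List ℤ → ℤ) : ∀ (C : List (List ℤ)) (V : List ℤ),
    (∀ w ∈ C, ZeroAt T w y) → V.length = D.n → (acc0 f C V).length = D.n ∧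
      ∑ a, nth (acc0 f C V) (T.ty (a * x * a⁻¹ * y)) = ∑ a, nth V (T.ty (a * x * a⁻¹ * y)) := by
  intro C
  induction C with
  | nil => exact fun V _ hV => ⟨hV, rfl⟩
  | cons w C ih =>
    intro V hW hV
    have e1 : acc0 f (w :: C) V = acc0 f C (axz (f w) V w) :=
      (frcZ_eq (f w) fun p => frcLZ (axz p V w) (acc0 f C)).trans (frcLZ_eq _ _)
    obtain ⟨h1, h2⟩ := ih _ (fun v hv => hW v (List.mem_cons_of_mem _ hv)) ((length_axz (f w) V w).trans hV)
    rw [e1, h2, Finset.sum_congr rfl fun a _ => nth_axz _ _ _ (hV ▸ T.lt _), Finset.sum_add_distrib,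
      ← Finset.mul_sum, hW w List.mem_cons_self x, mul_zero, add_zero]
    exact ⟨h1, rfl⟩

theorem dvd_sumP' [Fintype G] (hN : Nat.card G = D.N) {W C : List (List ℤ)} {y : G} (hW : ∀ w ∈ W, SumAt T w y)
    (hC : ∀ w ∈ C, ZeroAt T w y) (z : List ℤ) (f : List ℤ → ℤ) (x : G) : Nat.card (centralizer ({x} : Set G)) ∣
      (Int.mul D.N (sumP (T.ty x) (T.ty y) z W)).natAbs / gcdL (accP z W (acc0 f C (List.replicate D.n 0))) := by
  classical
  obtain ⟨h1, h2⟩ := sum_acc0 x y f C _ hC (List.length_replicate (a := 0))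
  have h3 := sum_accP' x y z W _ hW h1
  have h5 : ∑ a, nth (List.replicate D.n 0) (T.ty (a * x * a⁻¹ * y)) = 0 :=
    Finset.sum_eq_zero fun a _ => by
      rw [nth_eq, List.getD_eq_getElem _ _ (by rw [List.length_replicate]; exact T.lt _), List.getElem_replicate]
  generalize accP z W (acc0 f C (List.replicate D.n 0)) = V at h3 ⊢
  rw [h2, h5, zero_add, hN, Characters.ClassMul.sum_conj_eq_smul (fun g => nth V (T.ty (g * y))) x, nsmul_eq_mul] at h3
  rcases Nat.eq_zero_or_pos (gcdL V) with h6 | h6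
  · rw [h6, Nat.div_zero]
    exact dvd_zero _
  · refine Nat.dvd_div_of_mul_dvd (Int.natCast_dvd.1 ?_)
    show _ ∣ (D.N : ℤ) * _
    rw [← h3, Nat.cast_mul, mul_comm]
    exact mul_dvd_mul_left _ (Finset.dvd_sum fun g _ => gcdL_dvd _ _)

/-- the combination of the columns -/
noncomputable def mw (m : List (ℤ × ℕ)) (w : List ℤ) : ℤ :=
  List.rec 0 (fun p _ ih => Int.add (Int.mul p.1 (nth w p.2)) ih) m

/-- the coefficients of the rows -/
noncomputable def zz (D : Dat) (k : ℕ) (m : List (ℤ × ℕ)) (W : List (List ℤ)) : List ℤ :=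
  W.map fun w => Int.mul (Int.mul k (Int.ediv (Nat.mul 2 D.N) (nth w 0))) (mw m w)

/-- the rows of a level -/
noncomputable def lvW (A B : List (List ℤ)) (lv : ℕ) : List (List ℤ) := cond (Nat.beq lv 0) A (A ++ B)

/-- the rows of the star of a level -/
noncomputable def lvC (C : List (List ℤ)) (lv : ℕ) : List (List ℤ) := cond (Nat.beq lv 2) C []

/-- the coefficients of a certificate -/
noncomputable def cz (D : Dat) (A B C : List (List ℤ)) (c : ℕ × List (ℤ × ℕ)) : List ℤ :=
  zz D (2 * ((lvC C c.1).length + 1)) c.2 A ++ zz D ((lvC C c.1).length + 1) c.2 B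

/-- the common divisor of the values -/
noncomputable def cM (D : Dat) (A B C : List (List ℤ)) (c : ℕ × List (ℤ × ℕ)) (z : List ℤ) : ℕ :=
  gcdL (accP z (lvW A B c.1) (acc0 (fun w => Int.mul (Nat.mul 4 D.N)
    (Int.sub (Int.mul (C.length + 1 : ℕ) (mw c.2 w)) (C.map (mw c.2)).sum)) (lvC C c.1) (List.replicate D.n 0)))

/-- evaluate all the certificates -/
noncomputable def allC (D : Dat) (A B C : List (List ℤ)) (cs : List (ℕ × List (ℤ × ℕ))) :
    (List (ℕ × List ℤ × ℕ) → Bool) → Bool :=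
  List.rec (fun k => k []) (fun c _ ih k => frcLZ (cz D A B C c) fun z => frc (cM D A B C c z) fun M =>
    ih fun l => k ((c.1, z, M) :: l)) cs

theorem allC_eq (A B C : List (List ℤ)) (cs : List (ℕ × List (ℤ × ℕ))) :
    ∀ k, allC D A B C cs k = k (cs.map fun c => (c.1, cz D A B C c, cM D A B C c (cz D A B C c))) := by
  induction cs with
  | nil => exact fun _ => rfl
  | cons c cs ih =>
    intro k
    refine (frcLZ_eq _ _).trans ((frc_eq _ _).trans ?_)
    exact ih fun l => k ((c.1, cz D A B C c, cM D A B C c (cz D A B C c)) :: l)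

/-- the bounds hold -/
def Bnds (T : TD G D) (U : List ℕ) : Prop := ∀ t, Bnd T t (ntd U 0 t)

theorem Bnds.set {U : List ℕ} (h : Bnds T U) {t v : ℕ} (hv : Bnd T t v) : Bnds T (U.set t v) := by
  have key : ∀ (U : List ℕ) (t s : ℕ), ntd (U.set t v) 0 s = ntd U 0 s ∨ s = t ∧ ntd (U.set t v) 0 s = v := fun U => by
    induction U with
    | nil => exact fun _ _ => Or.inl rfl
    | cons a U ih =>
      rintro (_ | t) (_ | s)
      exacts [Or.inr ⟨rfl, rfl⟩, Or.inl rfl, Or.inl rfl, (ih t s).imp id fun h => ⟨congrArg _ h.1, h.2⟩]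
  intro s
  rcases key U t s with e | ⟨rfl, e⟩ <;> rw [e]
  exacts [h s, hv]

theorem Bnd.gcd {t a b : ℕ} (ha : Bnd T t a) (hb : Bnd T t b) : Bnd T t (Nat.gcd a b) :=
  fun x hx => Nat.dvd_gcd (ha x hx) (hb x hx)

/-- steps -/
inductive St : Type
  | cm (t c s : ℕ) : St
  | pw (t k : ℕ) : St
  | ds (t l a e : ℕ) : St

/-- the bound is the exact one -/
noncomputable def ex (D : Dat) (U : List ℕ) (s : ℕ) : Bool :=
  frc (ntd U 0 s) fun u => Nat.blt s D.n && Nat.blt 0 u && Nat.ble (Nat.mul (D.cnt s) u) D.N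

theorem Bnds.one (hN : Nat.card G = D.N) (hI : Inh T) {U : List ℕ} (h : Bnds T U) {s : ℕ} (hs : ex D U s = true) :
    One T s := by
  rw [ex, frc_eq, Bool.and_eq_true, Bool.and_eq_true, Nat.blt_eq, Nat.blt_eq, Nat.ble_eq] at hs
  exact (h s).one hN hI hs.1.1 hs.1.2 hs.2

/-- one step: the type and the new bound -/
noncomputable def stp (D : Dat) (A AB C : List (List ℤ)) (Z : List (ℕ × List ℤ × ℕ)) (U : List ℕ)
    (κ : ℕ → ℕ → Bool) (s : St) : Bool :=
  St.rec
    (fun t c s => frc (ntd Z (0, [], 0) c).1 fun lv =>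
      cond (Nat.blt s D.n && (Nat.beq lv 0 || ex D U s) && allL (fun w => decide (nth w s = 0)) (lvC C lv))
        (κ t (Nat.gcd (ntd U 0 t) ((Int.mul D.N (sumP t s (ntd Z (0, [], 0) c).2.1 (cond (Nat.beq lv 0) A AB))).natAbs /
          (ntd Z (0, [], 0) c).2.2))) false)
    (fun t k => κ t (Nat.gcd (ntd U 0 t) (ntd U 0 (D.pwf t k))))
    (fun t l a e => cond (isPr l && Nat.beq (ntd U 0 t % l ^ a) 0 &&
        okD D l e t (((List.range D.n).filter fun u => D.ord u == l * D.ord t).map fun u => (u, ntd U 0 u, [])))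
      (κ t (l ^ e * (ntd U 0 t / l ^ a))) false) s

/-- all the steps -/
noncomputable def run (D : Dat) (A AB C : List (List ℤ)) (Z : List (ℕ × List ℤ × ℕ)) (κ : List ℕ → Bool)
    (L : List St) : List ℕ → Bool :=
  List.rec κ (fun s _ ih U => stp D A AB C Z U (fun t v => frcL (U.set t v) ih) s) L

/-- what is known on the rows -/
structure Rw [Fintype G] (T : TD G D) (A B C : List (List ℤ)) : Prop where
  a : ∀ y, ∀ w ∈ A, SumAt T w y
  b : ∀ y, One T (T.ty y) → ∀ w ∈ B, SumAt T w y
  c : ∀ y, One T (T.ty y) → (∀ w ∈ C, nth w (T.ty y) = 0) → ∀ w ∈ C, ZeroAt T w y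

theorem cond_ff {b c : Bool} (h : cond b c false = true) : b = true ∧ c = true := by
  cases b
  · cases h
  · exact ⟨rfl, h⟩

theorem stp_spec [Fintype G] (hN : Nat.card G = D.N) (hI : Inh T) {A B C : List (List ℤ)} (H : Rw T A B C)
    {cs : List (ℕ × List (ℤ × ℕ))} {U : List ℕ} (hU : Bnds T U) {κ : ℕ → ℕ → Bool} {s : St}
    (h : stp D A (A ++ B) C (cs.map fun c => (c.1, cz D A B C c, cM D A B C c (cz D A B C c))) U κ s = true) :
    ∃ t v, Bnd T t v ∧ κ t v = true := by
  cases s with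
  | cm t c s =>
    unfold stp at h
    dsimp only at h
    rw [frc_eq] at h
    obtain ⟨h1, h2⟩ := cond_ff h
    refine ⟨t, _, Bnd.gcd (hU t) fun x hx => ?_, h2⟩
    rw [Bool.and_eq_true, Bool.and_eq_true, Nat.blt_eq, Bool.or_eq_true] at h1
    obtain ⟨y, hy⟩ := hI s h1.1.1
    rcases ntd_mem (cs.map fun c => (c.1, cz D A B C c, cM D A B C c (cz D A B C c))) (0, [], 0) c with h3 | h3
    · rw [h3, Nat.div_zero]
      exact dvd_zero _
    obtain ⟨m, -, h4⟩ := List.mem_map.1 h3
    rw [← h4] at h1 ⊢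
    subst hx hy
    refine dvd_sumP' (W := lvW A B m.1) hN ?_ ?_ _ _ x
    · unfold lvW
      cases h5 : Nat.beq m.1 0
      · have h6 := hU.one hN hI (h1.1.2.resolve_left (by rw [h5]; exact Bool.false_ne_true))
        exact List.forall_mem_append.2 ⟨H.a y, H.b y h6⟩
      · exact H.a y
    · have h7 := allL_spec h1.2
      unfold lvC at h7 ⊢
      cases h5 : Nat.beq m.1 2
      · exact List.forall_mem_nil _
      · rw [h5] at h7
        refine H.c y (hU.one hN hI (h1.1.2.resolve_left ?_)) fun w hw => of_decide_eq_true (h7 w hw)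
        rw [Nat.eq_of_beq_eq_true h5]
        exact Bool.false_ne_true
  | pw t k => exact ⟨t, _, Bnd.gcd (hU t) (Bnd.pow (hU _) rfl), h⟩
  | ds t l a e =>
    obtain ⟨h1, h2⟩ := cond_ff h
    rw [Bool.and_eq_true, Bool.and_eq_true, Nat.beq_eq] at h1
    refine ⟨t, _, Bnd.desc (a := a) (isPr_spec h1.1.1) ?_ (fun x hx => ?_) h1.2, h2⟩
    · rw [Nat.mul_div_cancel' (Nat.dvd_of_mod_eq_zero h1.1.2)]
      exact hU t
    · obtain ⟨u, -, rfl⟩ := List.mem_map.1 hx
      exact hU u

/-- **the check** -/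
noncomputable def chk (D : Dat) (A B C : List (List ℤ)) (cs : List (ℕ × List (ℤ × ℕ))) (L : List St) (U V : List ℕ) :
    Bool :=
  Glue.frcM A fun A' => Glue.frcM B fun B' => Glue.frcM C fun C' => Glue.frcM (A' ++ B') fun AB =>
    allC D A' B' C' cs fun Z => frcL U (run D A' AB C' Z (fun U' => decide (U' = V)) L)

/-- **bounds for the centralizers** -/
theorem bnd_run [Fintype G] (hN : Nat.card G = D.N) (hI : Inh T) {A B C : List (List ℤ)} (H : Rw T A B C)
    {cs : List (ℕ × List (ℤ × ℕ))} {L : List St} {U V : List ℕ} (hU : Bnds T U)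
    (h : chk D A B C cs L U V = true) : Bnds T V := by
  rw [chk, Glue.frcM_eq, Glue.frcM_eq, Glue.frcM_eq, Glue.frcM_eq, allC_eq, frcL_eq] at h
  generalize hZ : (cs.map fun c => (c.1, cz D A B C c, cM D A B C c (cz D A B C c))) = Z at h
  induction L generalizing U with
  | nil => exact of_decide_eq_true h ▸ hU
  | cons s L ih =>
    have h0 : stp D A (A ++ B) C Z U (fun t v => frcL (U.set t v) (run D A (A ++ B) C Z (fun U' => decide (U' = V)) L))
      s = true := h
    rw [← hZ] at h0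
    obtain ⟨t, v, h1, h2⟩ := stp_spec hN hI H hU h0
    rw [hZ, frcL_eq] at h2
    exact ih (hU.set h1) h2

/-- the first bounds -/
def ini (D : Dat) (O : List ℕ) : List ℕ := (List.range D.n).map fun t => if t ∈ O then D.N / D.cnt t else D.N

theorem bnds_ini [Finite G] (hm : T.Mass) {O : List ℕ} (hO : ∀ t ∈ O, One T t) : Bnds T (ini D O) := by
  intro t x hx
  have ht : t < (ini D O).length := by rw [ini, List.length_map, List.length_range, ← hx]; exact T.lt x
  rw [ntd_eq _ _ ht]
  simp only [ini, List.getElem_map, List.getElem_range]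
  split_ifs with h
  · have h1 := (hO t h).card hm hx
    have h2 : 0 < D.cnt t := Nat.pos_of_ne_zero fun h2 => by
      rw [h2, zero_mul, ← hm.1] at h1
      exact Nat.card_pos.ne h1
    rw [← h1, Nat.mul_div_cancel_left _ h2]
  · exact hm.1 ▸ Subgroup.card_subgroup_dvd_card _

/-- the checks on the data -/
def okT (D : Dat) (R : Rows) : Bool :=
  ((List.range D.n).all fun i => i == 0 || D.ord i != 1) && ((List.range D.n).all fun i => 0 < D.cnt i) && okInd D R

theorem inh_of_okT (hm : T.Mass) {R : Rows} (h : okT D R = true) : Inh T := by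
  rw [okT, Bool.and_eq_true, Bool.and_eq_true] at h
  exact inh_of_mass hm fun i hi => of_decide_eq_true (List.all_eq_true.1 h.1.2 i (List.mem_range.2 hi))

theorem rw_of [Fintype G] (hm : T.Mass) {R : Rows} (h : Tab T R) (hT : okT D R = true) :
    Rw T (irows R) (prows R) [] := by
  rw [okT, Bool.and_eq_true, Bool.and_eq_true] at hT
  exact ⟨fun y w hw x => (irr_irows h w hw).sum (ty_one hT.1.1) x y,
    fun y hy => sumAt_prows hm h hT.2 (ty_one hT.1.1) hy, fun _ _ _ => List.forall_mem_nil _⟩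

theorem rw_star [Fintype G] (hm : T.Mass) {R : Rows} (h : Tab T R) (hT : okT D R = true) {j : ℕ}
    (hj : okOrt R (sOrt R j) = true) : Rw T (irows R) (prows R) ((srel R j).map Prod.snd) := by
  have h1 := rw_of hm h hT
  rw [okT, Bool.and_eq_true] at hT
  exact ⟨h1.a, h1.b, fun y hy h0 => zeroAt_srel hm h hT.2 hj hy fun r hr => h0 _ (List.mem_map_of_mem hr)⟩

theorem one_zero [Finite G] (h1 : T.ty 1 = 0) (h : D.cnt 0 = 1) : One T 0 :=
  ⟨1, h1, by rw [h, one_mul]; exact Subgroup.card_le_card_group _⟩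

end Cfsg.Agent.N2.SpK
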