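import Cfsg.Agent.N2.SpK.Tool
import Cfsg.Agent.TAB.Use.Main

/-!
# N2 (S3519), the sporadic rows: the values of the characters on the single classes (helper26)

The rows of a table span the functions of the type.  Hence a combination of characters which is orthogonal to the
rows has the sum zero on every type.
-/

set_option autoImplicit false

namespace Cfsg.Agent.N2.SpK

open Cfsg Cfsg.Agent.TAB Cfsg.Agent.TAB.Eng Cfsg.Agent.TAB.Use Cfsg.Agent.TH.Spor Cfsg.Agent.Characters
open Cfsg.Agent.TwoF.SpO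
open scoped ComplexConjugate

universe u

variable {G : Type u} [Group G] {D : Dat} {T : TD G D} {R : Rows} {χ : ℕ → G → ℂ}

/-- a combination of characters -/
noncomputable def cmb (χ : ℕ → G → ℂ) (e : List (ℕ × ℤ)) (g : G) : ℂ := (e.map fun p => (p.2 : ℂ) * χ p.1 g).sum

/-- the last constituent -/
def pv (c : List (ℕ × ℤ)) : ℕ := (c.getLastD (0, 0)).1

/-- the rows are independent -/
def okInd (D : Dat) (R : Rows) : Bool :=
  (R.rel.map Prod.fst).length == D.n &&
    ((R.rel.map Prod.fst).all fun c => (c.all fun p => decide (p.1 < R.n)) && decide (pv c < R.n) && coef c (pv c) != 0) &&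
    decide ((R.rel.map Prod.fst).Pairwise fun c c' => coef c' (pv c) = 0 ∧ coef c (pv c') = 0)

/-- the combination is orthogonal to the rows -/
def okOrt (R : Rows) (e : List (ℕ × ℤ)) : Bool :=
  (e.all fun p => decide (p.1 < R.n)) &&
    (R.rel.map Prod.fst).all fun c => (e.map fun p => p.2 * coef c p.1).sum == 0

theorem span_rows [Fintype G] (hE : Enum G R.n R.d χ) (hR : Rel T R χ) (h : okInd D R = true)
    (Λ : (G → ℂ) →ₗ[ℂ] ℂ) (hΛ : ∀ r ∈ R.rel, Λ (cmb χ r.1) = 0) (F : ℕ → ℂ) : Λ (fun g => F (T.ty g)) = 0 := by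
  simp only [okInd, Bool.and_eq_true, beq_iff_eq, List.all_eq_true, decide_eq_true_eq, bne_iff_ne] at h
  obtain ⟨⟨h1, h2⟩, h3⟩ := h
  set C := R.rel.map Prod.fst with hC
  let v : Fin C.length → G → ℂ := fun i => cmb χ C[i]
  let L : (Fin D.n → ℂ) →ₗ[ℂ] G → ℂ := LinearMap.funLeft ℂ ℂ fun g => ⟨T.ty g, T.lt g⟩
  have h4 : ∀ i : Fin C.length, ∃ r ∈ R.rel, r.1 = C[i] := fun i => List.mem_map.1 (List.getElem_mem i.2)
  have h5 : LinearIndependent ℂ v := by
    refine Fintype.linearIndependent_iff.2 fun a ha i => ?_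
    have h6 := congrArg (fun f => classInner f (χ (pv C[i]))) ha
    have h7 := h2 _ (List.getElem_mem i.2)
    simp only [Core.classInner_zero_left, Core.classInner_sum_left, Core.classInner_smul_left] at h6
    have h8 : ∀ l : Fin C.length, classInner (v l) (χ (pv C[i])) = coef C[l] (pv C[i]) := fun l =>
      inner_comb hE h7.1.2 _ (h2 _ (List.getElem_mem l.2)).1.1
    rw [Finset.sum_eq_single i (fun l _ hl => ?_) fun h9 => absurd (Finset.mem_univ i) h9, h8] at h6
    · exact (mul_eq_zero.1 h6).resolve_right (Int.cast_ne_zero.2 h7.2)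
    · have h9 : coef C[l] (pv C[i]) = 0 := by
        rcases lt_or_gt_of_ne (Fin.val_ne_of_ne hl) with h9 | h9
        exacts [(List.pairwise_iff_getElem.1 h3 _ _ l.2 i.2 h9).2, (List.pairwise_iff_getElem.1 h3 _ _ i.2 l.2 h9).1]
      rw [h8, h9, Int.cast_zero, mul_zero]
  have h6 : Submodule.span ℂ (Set.range v) = LinearMap.range L := by
    refine Submodule.eq_of_le_of_finrank_le (Submodule.span_le.2 ?_) ?_
    · rintro _ ⟨i, rfl⟩
      obtain ⟨r, hr, e⟩ := h4 i
      exact ⟨fun t => (r.2.getD t 0 : ℤ), funext fun g => ((hR r hr g).symm.trans (congrArg (fun c => cmb χ c g) e) :)⟩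
    · rw [finrank_span_eq_card h5, Fintype.card_fin, h1]
      exact (LinearMap.finrank_range_le L).trans (by simp)
  have h7 : (fun g => F (T.ty g)) ∈ Submodule.span ℂ (Set.range v) := h6 ▸ ⟨fun t => F t, rfl⟩
  refine (Submodule.span_le (p := LinearMap.ker Λ)).2 ?_ h7
  rintro _ ⟨i, rfl⟩
  obtain ⟨r, hr, e⟩ := h4 i
  exact (congrArg (fun c => Λ (cmb χ c)) e).symm.trans (hΛ r hr)

theorem cmb_conj {n : ℕ} {d : ℕ → ℕ} (hE : Enum G n d χ) {e : List (ℕ × ℤ)} (he : ∀ p ∈ e, p.1 < n) {x y : G}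
    (h : IsConj x y) : cmb χ e y = cmb χ e x := by
  obtain ⟨c, rfl⟩ := isConj_iff.1 h
  exact congrArg List.sum (List.map_congr_left fun p hp => by rw [Core.isIrr_isClassFunction (hE.irr _ (he p hp))])

/-- **the sums on the types vanish** -/
theorem sum_cmb [Fintype G] (hE : Enum G R.n R.d χ) (hR : Rel T R χ) (h : okInd D R = true) {e : List (ℕ × ℤ)}
    (he : okOrt R e = true) (F : ℕ → ℂ) : ∑ g, F (T.ty g) * cmb χ e g = 0 := by
  simp only [okOrt, Bool.and_eq_true, List.all_eq_true, decide_eq_true_eq, beq_iff_eq] at he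
  let Λ : (G → ℂ) →ₗ[ℂ] ℂ := ⟨⟨fun f => classInner f (cmb χ e), fun _ _ => Core.classInner_add_left _ _ _⟩,
    fun _ _ => Core.classInner_smul_left _ _ _⟩
  have h1 : ∀ (f : G → ℂ) (l : List (ℕ × ℤ)),
      classInner f (cmb χ l) = (l.map fun p => (p.2 : ℂ) * classInner f (χ p.1)).sum := fun f l => by
    induction l with
    | nil => simp [cmb, Core.classInner_def]
    | cons p l ih =>
      rw [List.map_cons, List.sum_cons, ← ih]
      simp only [cmb, Core.classInner_def, List.map_cons, List.sum_cons, map_add, map_mul, map_intCast, mul_add,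
        Finset.sum_add_distrib, Finset.mul_sum]
      refine congrArg₂ _ (Finset.sum_congr rfl fun g _ => by ring) rfl
  have h0 : ∀ c ∈ R.rel.map Prod.fst, ∀ p ∈ c, p.1 < R.n := fun c hc => by
    simp only [okInd, Bool.and_eq_true, List.all_eq_true, decide_eq_true_eq] at h
    exact (h.1.2 c hc).1.1
  have h2 := span_rows hE hR h Λ (fun r hr => by
    have h2 := congrArg (Int.cast : ℤ → ℂ) (he.2 _ (List.mem_map_of_mem hr))
    rw [Int.cast_list_sum, List.map_map, Int.cast_zero] at h2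
    refine (h1 _ e).trans (Eq.trans (congrArg List.sum (List.map_congr_left fun p hp => ?_)) h2)
    rw [Function.comp, Int.cast_mul, ← inner_comb hE (he.1 p hp) _ (h0 _ (List.mem_map_of_mem hr))]
    rfl) fun t => conj (F t)
  have h3 : (Nat.card G : ℂ)⁻¹ * ∑ g, conj (F (T.ty g)) * conj (cmb χ e g) = 0 := h2
  rw [mul_eq_zero, inv_eq_zero, Nat.cast_eq_zero] at h3
  have h4 := congrArg conj (h3.resolve_left Nat.card_pos.ne')
  simpa using h4

theorem sum_ind [Fintype G] (hm : T.Mass) {s : ℕ} (hs : s < D.n) (c : ℂ) :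
    ∑ g, (if T.ty g = s then 1 else 0 : ℂ) * c = D.cnt s * c := by
  rw [sum_mass hm fun t => (if t = s then 1 else 0 : ℂ) * c, Finset.sum_eq_single s
    (fun t _ ht => by rw [if_neg ht, zero_mul, smul_zero]) fun h => absurd (Finset.mem_range.2 hs) h, if_pos rfl,
    one_mul, nsmul_eq_mul]

/-- **the values on a single class** -/
theorem cmb_one [Finite G] (hm : T.Mass) (hE : Enum G R.n R.d χ) (hR : Rel T R χ) (h : okInd D R = true)
    {e : List (ℕ × ℤ)} (he : okOrt R e = true) {y : G} (hy : ∀ g, T.ty g = T.ty y → cmb χ e g = cmb χ e y) :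
    cmb χ e y = 0 := by
  have := Fintype.ofFinite G
  have h1 := sum_cmb hE hR h he fun t => if t = T.ty y then 1 else 0
  rw [Finset.sum_congr rfl (g := fun g => (if T.ty g = T.ty y then 1 else 0 : ℂ) * cmb χ e y) fun g _ => by
    split_ifs with h2
    · rw [hy g h2]
    · rw [zero_mul, zero_mul], sum_ind hm (T.lt y), mul_eq_zero, Nat.cast_eq_zero, ← hm.2 _ (T.lt y)] at h1
  have : Nonempty {g : G // T.ty g = T.ty y} := ⟨⟨y, rfl⟩⟩
  exact h1.resolve_left Nat.card_pos.ne'

theorem lt_of_okOrt {e : List (ℕ × ℤ)} (he : okOrt R e = true) : ∀ p ∈ e, p.1 < R.n := by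
  simp only [okOrt, Bool.and_eq_true, List.all_eq_true, decide_eq_true_eq] at he
  exact he.1

theorem One.cmb [Finite G] (hm : T.Mass) (hE : Enum G R.n R.d χ) (hR : Rel T R χ) (h : okInd D R = true)
    {e : List (ℕ × ℤ)} (he : okOrt R e = true) {y : G} (hy : One T (T.ty y)) : cmb χ e y = 0 :=
  cmb_one hm hE hR h he fun _ hg => cmb_conj hE (lt_of_okOrt he) (hy.conj hm rfl hg)

/-- the formula for the products of conjugates -/
def SumAt [Fintype G] (T : TD G D) (w : List ℤ) (y : G) : Prop :=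
  ∀ x, ∑ a, nth w 0 * nth w (T.ty (a * x * a⁻¹ * y)) = Nat.card G * (nth w (T.ty x) * nth w (T.ty y))

/-- the sums vanish -/
def ZeroAt [Fintype G] (T : TD G D) (w : List ℤ) (y : G) : Prop := ∀ x, ∑ a, nth w (T.ty (a * x * a⁻¹ * y)) = 0

/-- the relation is the sum of two characters of the same degree -/
def isPair (R : Rows) (r : List (ℕ × ℤ) × List ℤ) : Bool :=
  r.1 == [((r.1.headD (0, 0)).1, 1), (pv r.1, 1)] && R.d (r.1.headD (0, 0)).1 == R.d (pv r.1) &&
    okOrt R [((r.1.headD (0, 0)).1, 1), (pv r.1, -1)]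

/-- the two characters of a pair -/
theorem pair_spec (hR : Rel T R χ) {r : List (ℕ × ℤ) × List ℤ} (hr : r ∈ R.rel) (h : isPair R r = true) :
    ∃ j < R.n, ∃ k < R.n, R.d j = R.d k ∧ okOrt R [(j, 1), (k, -1)] = true ∧
      ∀ g, χ j g + χ k g = nth r.2 (T.ty g) := by
  simp only [isPair, Bool.and_eq_true, beq_iff_eq] at h
  have h1 := lt_of_okOrt h.2
  refine ⟨_, h1 _ List.mem_cons_self, _, h1 _ (List.mem_cons_of_mem _ List.mem_cons_self), h.1.2, h.2, fun g => ?_⟩
  have h2 := hR r hr g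
  rw [h.1.1] at h2
  rw [nth_eq, ← h2]
  simp

omit [Group G] in
theorem cmb_pair (j k : ℕ) (g : G) : cmb χ [(j, 1), (k, -1)] g = χ j g - χ k g := by
  simp [cmb, sub_eq_add_neg]

/-- the rows which are pairs -/
def prows (R : Rows) : List (List ℤ) := (R.rel.filter (isPair R)).map Prod.snd

theorem sumAt_prows [Fintype G] (hm : T.Mass) (h : Tab T R) (hi : okInd D R = true) (h1 : T.ty 1 = 0) {y : G}
    (hy : One T (T.ty y)) : ∀ w ∈ prows R, SumAt T w y := by
  obtain ⟨χ, hE, hR⟩ := h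
  intro w hw x
  obtain ⟨r, hr, rfl⟩ := List.mem_map.1 hw
  obtain ⟨j, hj, k, hk, h2, h3, h4⟩ := pair_spec hR (List.mem_filter.1 hr).1 (List.mem_filter.1 hr).2
  have h5 := One.cmb hm hE hR hi h3 hy
  rw [cmb_pair, sub_eq_zero] at h5
  have h6 := Central.sum_char_conj_mul (hE.irr j hj) x y
  have h7 := Central.sum_char_conj_mul (hE.irr k hk) x y
  have h8 : χ k 1 = χ j 1 := by rw [hE.deg j hj, hE.deg k hk, h2]
  rw [h8, ← h5] at h7
  rw [eq_div_iff (Central.irr_one_ne_zero (hE.irr j hj))] at h6 h7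
  have h9 : ((∑ a, nth r.2 0 * nth r.2 (T.ty (a * x * a⁻¹ * y)) : ℤ) : ℂ) =
      (Nat.card G * (nth r.2 (T.ty x) * nth r.2 (T.ty y)) : ℤ) := by
    push_cast
    simp only [← h4]
    rw [← h1, ← h4, h8, ← h5, ← Finset.mul_sum, Finset.sum_add_distrib]
    linear_combination 2 * h6 + 2 * h7
  exact_mod_cast h9

/-- the relation joins the character `j` and another one -/
def isStar (j : ℕ) (r : List (ℕ × ℤ) × List ℤ) : Bool :=
  r.1 == [(j, 1), (pv r.1, 1)] || r.1 == [(j, 1), (pv r.1, -1)]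

/-- the rows of a star -/
def srel (R : Rows) (j : ℕ) : List (List (ℕ × ℤ) × List ℤ) := R.rel.filter (isStar j)

/-- the combination which is orthogonal to a star -/
def sOrt (R : Rows) (j : ℕ) : List (ℕ × ℤ) := (j, 1) :: (srel R j).map fun r => (pv r.1, -(r.1.getLastD (0, 0)).2)

theorem zeroAt_srel [Fintype G] (hm : T.Mass) (h : Tab T R) (hi : okInd D R = true) {j : ℕ}
    (hj : okOrt R (sOrt R j) = true) {y : G} (hy : One T (T.ty y)) (h0 : ∀ r ∈ srel R j, nth r.2 (T.ty y) = 0) :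
    ∀ w ∈ (srel R j).map Prod.snd, ZeroAt T w y := by
  obtain ⟨χ, hE, hR⟩ := h
  have h1 : ∀ r ∈ srel R j, ∃ a : ℤ, a * a = 1 ∧ (r.1.getLastD (0, 0)).2 = a ∧
      ∀ g, χ j g + a * χ (pv r.1) g = nth r.2 (T.ty g) := fun r hr => by
    obtain ⟨h1, h2⟩ := List.mem_filter.1 hr
    rw [isStar, Bool.or_eq_true, beq_iff_eq, beq_iff_eq] at h2
    rcases h2 with h2 | h2
    · refine ⟨1, rfl, by rw [h2]; rfl, fun g => ?_⟩
      have h3 := hR r h1 g
      rw [h2] at h3
      rw [nth_eq, ← h3]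
      simp
    · refine ⟨-1, rfl, by rw [h2]; rfl, fun g => ?_⟩
      have h3 := hR r h1 g
      rw [h2] at h3
      rw [nth_eq, ← h3]
      simp
  have h2 : χ j y = 0 := by
    have h2 := One.cmb hm hE hR hi hj hy
    rw [sOrt, cmb, List.map_cons, List.sum_cons, List.map_map, List.map_congr_left (g := fun _ => χ j y) fun r hr => by
      obtain ⟨a, -, h4, h5⟩ := h1 r hr
      have h6 := h5 y
      rw [h0 r hr, Int.cast_zero] at h6
      simp only [Function.comp, h4, Int.cast_neg]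
      linear_combination -h6, List.map_const', List.sum_replicate, nsmul_eq_mul] at h2
    have h3 : (((srel R j).length + 1 : ℕ) : ℂ) * χ j y = 0 := by
      push_cast at h2 ⊢
      linear_combination h2
    exact (mul_eq_zero.1 h3).resolve_left (Nat.cast_ne_zero.2 (Nat.succ_ne_zero _))
  intro w hw x
  obtain ⟨r, hr, rfl⟩ := List.mem_map.1 hw
  obtain ⟨a, h3, -, h5⟩ := h1 r hr
  have h6 : χ (pv r.1) y = 0 := by
    have h6 := h5 y
    have h7 : (a : ℂ) * a = 1 := by exact_mod_cast h3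
    rw [h0 r hr, h2, Int.cast_zero] at h6
    linear_combination a * h6 - χ (pv r.1) y * h7
  have h7 := Central.sum_char_conj_mul (hE.irr j (lt_of_okOrt hj _ List.mem_cons_self)) x y
  have h8 := Central.sum_char_conj_mul (hE.irr (pv r.1)
    (lt_of_okOrt hj (pv r.1, -(r.1.getLastD (0, 0)).2) (List.mem_cons_of_mem _ (List.mem_map.2 ⟨r, hr, rfl⟩)))) x y
  rw [h2, mul_zero, zero_div] at h7
  rw [h6, mul_zero, zero_div] at h8
  have h9 : ((∑ a, nth r.2 (T.ty (a * x * a⁻¹ * y)) : ℤ) : ℂ) = 0 := by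
    push_cast
    simp only [← h5]
    rw [Finset.sum_add_distrib, ← Finset.mul_sum, h7, h8, mul_zero, add_zero]
  exact_mod_cast h9

end Cfsg.Agent.N2.SpK
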