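import Cfsg.Agent.N2.SpK.Tool
import Cfsg.Agent.TH.Spor.InC

/-!
# N2 (S3519), the sporadic rows: the types of the Mathieu groups and of `Co3` are rational classes (helper26)
-/

set_option autoImplicit false
set_option maxRecDepth 100000

namespace Cfsg.Agent.N2.SpK

open Cfsg Cfsg.Agent.TAB Cfsg.Agent.TAB.Eng Cfsg.Agent.TAB.Use Cfsg.Agent.TH.Spor Cfsg.Agent.TAB.Sm2

variable {K : Type} [Group K]

theorem inK_of_split {G : Type} [Group G] [Finite G] {D : Dat} {T : TD G D} {R : Rows} (h : Tab T R) (hm : T.Mass)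
    (P : List (ℕ × ℕ × ℕ)) (S : List (ℕ × ℕ × ℕ)) (h1 : okSp D R.n P (cpl D (P.map Prod.fst)) = true)
    (h2 : SB.SporL.covU D (cpl D (P.map Prod.fst)) = true) (h3 : okK D (cpl D (P.map Prod.fst)) S [] [] = true) :
    InK G D R [] := by
  have h4 := one_of_split h hm P h1
  have h5 := unif_of_one hm _ h2 h4
  exact ⟨T, hm, h, h5, kap_of_chk hm h5 h4 S (List.forall_mem_nil _) (List.forall_mem_nil _) h3⟩

theorem inK_m11 (h : Spor.IsoM11 K) : InK K M11.dat (mkRows M11.rA M11.rB) [] := by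
  obtain ⟨e⟩ := h
  obtain ⟨T, h1, h2, -⟩ := M11.tab
  have h4 := one_of_split h2 h1 [(6, 6, 1), (7, 7, 1)] (L := [0, 1, 2, 3, 4, 5]) (by decide +kernel)
  have h5 := unif_of_one h1 _ (by decide +kernel) h4
  refine InK.of_equiv ⟨T, h1, h2, h5, kap_of_chk h1 h5 h4 [] (X := [6]) (List.forall_mem_singleton.2 ?_)
    (List.forall_mem_nil _) (by decide +kernel)⟩ e
  exact KapT.of_norm h1 (f := 4) (Bnd.pow (k := 2) (bnd_of_one h1 (U := 8) (h4 3 (by decide)) (by decide) (by decide))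
    (by decide)) (by decide) (by decide) (by decide)

theorem inK_m12 (h : Spor.IsoM12 K) : InK K M12.dat (mkRows M12.rA M12.rB) [] := by
  obtain ⟨e⟩ := h
  obtain ⟨T, h1, h2, -⟩ := M12.tab
  exact (inK_of_split h2 h1 [(13, 13, 1)] []
    (by decide +kernel) (by decide +kernel) (by decide +kernel)).of_equiv e

theorem inK_m22 (h : Spor.IsoM22 K) : InK K M22.dat (mkRows M22.rA M22.rB) [] := by
  obtain ⟨e⟩ := h
  obtain ⟨T, h1, h2, -⟩ := M22.tab
  exact (inK_of_split h2 h1 [(7, 7, 1), (9, 9, 1)] []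
    (by decide +kernel) (by decide +kernel) (by decide +kernel)).of_equiv e

theorem inK_m23 (h : Spor.IsoM23 K) : InK K M23.dat (mkRows M23.rA M23.rB) [] := by
  obtain ⟨e⟩ := h
  obtain ⟨T, h1, h2, -⟩ := M23.tab
  exact (inK_of_split h2 h1 [(6, 9, 2), (8, 8, 1), (9, 9, 1), (10, 10, 1), (11, 11, 1)] [(9, 7, 1), (10, 5, 1)]
    (by decide +kernel) (by decide +kernel) (by decide +kernel)).of_equiv e

theorem inK_m24 (h : Spor.IsoM24 K) : InK K M24.dat (mkRows M24.rA M24.rB) [] := by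
  obtain ⟨e⟩ := h
  obtain ⟨T, h1, h2, -⟩ := M24.tab
  exact (inK_of_split h2 h1 [(11, 17, 2), (17, 17, 1), (18, 18, 1), (19, 19, 1), (20, 20, 1)] [(17, 7, 1), (18, 5, 1), (19, 7, 1)]
    (by decide +kernel) (by decide +kernel) (by decide +kernel)).of_equiv e

theorem inK_co3 (h : Spor.IsoCo3 K) : InK K Co3.D (mkRows Co3.A Co3.B) [] := by
  obtain ⟨e⟩ := h
  have := Co3.finite
  obtain ⟨T, hm, hs⟩ := Co3.seeded
  exact (inK_of_split (Co.tab_of_virt hm Co3.ok_one
    (Co.virt_of_certs hm.1 Co3.ok_primes hs (allL_spec Co3.ok_certs) Co3.ok_all) Co3.ok_rows).2 hm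
    [(23, 33, 2), (31, 31, 1), (33, 33, 1), (34, 34, 1)] [(31, 5, 1), (33, 11, 1)] (by decide +kernel)
    (by decide +kernel) (by decide +kernel)).of_equiv e

end Cfsg.Agent.N2.SpK
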