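import Cfsg.Agent.N2.SpK.Defs

/-!
# N2 (S3519), the sporadic rows: tools for the rational classes (helper26)

* `RatT.syl` : a cyclic Sylow subgroup in the centralizer of a power;
* `KapT.of_norm` : the order of the normalizer of a cyclic subgroup;
* `kap_of_chk` : the assembly.
-/

set_option autoImplicit false

namespace Cfsg.Agent.N2.SpK

open Cfsg Cfsg.Agent.TAB Cfsg.Agent.TAB.Eng Cfsg.Agent.TAB.Use Cfsg.Agent.TH.Spor Cfsg.Agent.FP3
open Subgroup (centralizer zpowers normalizer mem_centralizer_singleton_iff)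

universe u

variable {G : Type u} [Group G] {D : Dat} {T : TD G D}

theorem conj_of_syl {H : Type u} [Group H] [Finite H] {p e : ℕ} (hp : p.Prime) (h : ¬ p ^ (e + 1) ∣ Nat.card H)
    {z z' : H} (hz : orderOf z = p ^ e) (hz' : orderOf z' = p ^ e) : ∃ (j : ℤ) (d : H), d * z ^ j * d⁻¹ = z' := by
  have : Fact p.Prime := ⟨hp⟩
  have h1 : (Nat.card H).factorization p = e := le_antisymm
    (Nat.lt_succ_iff.1 (not_le.1 fun h2 => h ((hp.pow_dvd_iff_le_factorization Nat.card_pos.ne').2 h2)))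
    ((hp.pow_dvd_iff_le_factorization Nat.card_pos.ne').1 (hz ▸ orderOf_dvd_natCard z))
  let P := Sylow.ofCard (p := p) (zpowers z) (by rw [Nat.card_zpowers, hz, h1])
  let Q := Sylow.ofCard (p := p) (zpowers z') (by rw [Nat.card_zpowers, hz', h1])
  obtain ⟨c, hc⟩ := MulAction.exists_smul_eq H P Q
  have h2 : z' ∈ (Q : Subgroup H) := Subgroup.mem_zpowers z'
  rw [← hc] at h2
  obtain ⟨y, ⟨j, rfl⟩, h3⟩ := h2
  exact ⟨j, c, h3⟩

theorem conj_nat [Finite G] {g h : G} {m : ℤ} (hc : IsConj (g ^ m) h) : ∃ k : ℕ, IsConj (g ^ k) h := by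
  obtain ⟨k, hk⟩ := (mem_powers_iff_mem_zpowers.2 ⟨m, rfl⟩ : g ^ m ∈ Submonoid.powers g)
  exact ⟨k, (show g ^ k = g ^ m from hk) ▸ hc⟩

/-- **a cyclic Sylow subgroup in the centralizer of a power** -/
theorem RatT.syl [Finite G] {t u p e a : ℕ} (hp : p.Prime) (ho : D.ord t = a * p ^ e) (ha : ¬ p ∣ a)
    (hu : D.pwf t (p ^ e) = u) (h : RatT T u)
    (hc : ∀ y, T.ty y = u → ¬ p ^ (e + 1) ∣ Nat.card (centralizer ({y} : Set G))) : RatT T t := by
  intro g h₀ hg hh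
  have h1 : ∀ x, T.ty x = t → T.ty (x ^ p ^ e) = u := fun x hx => by rw [T.pow, hx, hu]
  obtain ⟨k, hk⟩ := h _ _ (h1 g hg) (h1 h₀ hh)
  obtain ⟨c, hc1⟩ := isConj_iff.1 hk
  obtain ⟨x, hx, rfl⟩ : ∃ x, x ^ p ^ e = (g ^ p ^ e) ^ k ∧ c * x * c⁻¹ = h₀ :=
    ⟨c⁻¹ * h₀ * c⁻¹⁻¹, by rw [conj_pow, ← hc1]; group, by group⟩
  rw [T.conj] at hh
  have h2 : g ^ p ^ e ∈ zpowers (x ^ p ^ e) := by
    rw [hx]
    refine mem_zpowers_pow_iff.2 ?_
    have h3 : orderOf ((g ^ p ^ e) ^ k) = orderOf (g ^ p ^ e) := by rw [← hx, T.ord, T.ord, h1 x hh, h1 g hg]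
    rw [orderOf_pow] at h3
    rw [Nat.gcd_comm]
    exact (Nat.div_eq_self.1 h3).resolve_left (orderOf_pos _).ne'
  have h0 : a ≠ 0 := fun h0 => ha (h0 ▸ dvd_zero p)
  have h3 : ∀ x, T.ty x = t → orderOf (x ^ a) = p ^ e := fun x hx => by
    rw [orderOf_pow, T.ord, hx, ho, Nat.gcd_eq_right (dvd_mul_right a _), Nat.mul_div_cancel_left _ (Nat.pos_of_ne_zero h0)]
  have h4 : g ^ a ∈ centralizer ({g ^ p ^ e} : Set G) := mem_centralizer_singleton_iff.2 ((Commute.refl g).pow_pow _ _).eq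
  have h5 : x ^ a ∈ centralizer ({g ^ p ^ e} : Set G) := by
    obtain ⟨j, hj⟩ := h2
    rw [mem_centralizer_singleton_iff, ← hj]
    exact (((Commute.refl x).pow_pow _ _).zpow_right j).eq
  obtain ⟨j, d, hd⟩ := conj_of_syl hp (hc _ (h1 g hg)) (z := ⟨_, h4⟩) (z' := ⟨_, h5⟩)
    (by rw [← Subgroup.orderOf_coe, h3 g hg]) (by rw [← Subgroup.orderOf_coe, h3 x hh])
  have h6 : d.1 * (g ^ a) ^ j * d.1⁻¹ = x ^ a := congrArg Subtype.val hd
  have h7 : d.1 * (g ^ p ^ e) ^ k * d.1⁻¹ = x ^ p ^ e := by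
    rw [hx, (show Commute d.1 (g ^ p ^ e) from mem_centralizer_singleton_iff.1 d.2).pow_right, mul_inv_cancel_right]
  have h8 := Nat.gcd_eq_gcd_ab a (p ^ e)
  rw [(Nat.Coprime.pow_right e (hp.coprime_iff_not_dvd.2 ha).symm).gcd_eq_one, Nat.cast_one] at h8
  refine conj_nat (m := a * j * a.gcdA (p ^ e) + (p ^ e : ℕ) * k * a.gcdB (p ^ e))
    (IsConj.trans (isConj_iff.2 ⟨d.1, ?_⟩) (isConj_iff.2 ⟨c, rfl⟩))
  rw [← zpow_one x, h8, zpow_add, zpow_add, zpow_mul x, zpow_mul x, zpow_natCast, zpow_natCast, ← h6, ← h7, conj_zpow,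
    conj_zpow, zpow_mul, zpow_mul, zpow_mul, zpow_mul, zpow_natCast, zpow_natCast, zpow_natCast]
  group

theorem Bnd.pow [Finite G] {t u k U : ℕ} (h : Bnd T u U) (hk : D.pwf t k = u) : Bnd T t U := fun x hx =>
  (Subgroup.card_dvd_of_le fun _ hb => mem_centralizer_singleton_iff.2
    ((show Commute _ x from mem_centralizer_singleton_iff.1 hb).pow_right k).eq).trans
    (h (x ^ k) (by rw [T.pow, hx, hk]))

theorem bnd_of_one [Finite G] (hm : T.Mass) {t U : ℕ} (h : One T t) (h0 : 0 < D.cnt t) (hU : D.cnt t * U = D.N) :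
    Bnd T t U :=
  fun _ hx => dvd_of_eq (Nat.eq_of_mul_eq_mul_left h0 ((h.card hm hx).trans hU.symm))

theorem card_norm_dvd [Finite G] (x : G) : Nat.card (normalizer (zpowers x : Set G)) ∣
    Nat.card (centralizer ({x} : Set G)) * (orderOf x).totient := by
  rw [← (zpowers x).normalizerMonoidHom.ker.card_mul_index, Subgroup.index_ker, ← Nat.card_zpowers,
    ← IsCyclic.card_mulAut, Subgroup.normalizerMonoidHom_ker]
  refine Nat.mul_dvd_mul ?_ (Subgroup.card_subgroup_dvd_card _)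
  rw [← Subgroup.card_map_of_injective (Subgroup.subtype_injective _)]
  refine Subgroup.card_dvd_of_le ?_
  rintro _ ⟨b, hb, rfl⟩
  exact mem_centralizer_singleton_iff.2 (Subgroup.mem_centralizer_iff.1 hb x (Subgroup.mem_zpowers x)).symm

theorem card_RC_norm [Finite G] (x : G) (h : look (D.pw (T.ty x)) 1 = T.ty x) :
    Nat.card G * (orderOf x).totient ≤ Nat.card (RC T x) * Nat.card (normalizer (zpowers x : Set G)) := by
  classical
  have := finite_RC (T := T) x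
  have h1 : ∀ y : RC T x, ∃ (k : ℕ) (c : G), c * x ^ k * c⁻¹ = y.1 := fun y => by
    obtain ⟨k, hk⟩ := y.2.2
    exact ⟨k, isConj_iff.1 hk⟩
  choose k c hc using h1
  have h2 : ∀ j : ℕ, orderOf (x ^ j) = orderOf x → zpowers (x ^ j) = zpowers x := fun j hj =>
    Subgroup.eq_of_le_of_card_ge (Subgroup.zpowers_le.2 (Subgroup.npow_mem_zpowers x j))
      (by rw [Nat.card_zpowers, Nat.card_zpowers, hj])
  let S := (Finset.range (orderOf x)).filter (orderOf x).Coprime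
  have h3 : ∀ j : S, T.ty (x ^ j.1) = T.ty x := fun j => by
    refine (T.pow x j.1).trans ?_
    show look _ (Nat.gcd _ _) = _
    rw [← T.ord, (Finset.mem_filter.1 j.2).2.symm.gcd_eq_one, h]
  let f : G × S → RC T x := fun p => ⟨p.1 * x ^ p.2.1 * p.1⁻¹, (T.conj _ _).trans (h3 _), _, isConj_iff.2 ⟨_, rfl⟩⟩
  have h4 : ∀ p : G × S, (c (f p))⁻¹ * p.1 ∈ normalizer (zpowers x : Set G) := fun p => by
    have h5 : (c (f p))⁻¹ * p.1 * x ^ p.2.1 * ((c (f p))⁻¹ * p.1)⁻¹ = x ^ k (f p) := by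
      have h5 : c (f p) * x ^ k (f p) * (c (f p))⁻¹ = p.1 * x ^ p.2.1 * p.1⁻¹ := hc (f p)
      calc _ = (c (f p))⁻¹ * (p.1 * x ^ p.2.1 * p.1⁻¹) * c (f p) := by group
        _ = _ := by rw [← h5]; group
    have h6 : orderOf (x ^ p.2.1) = orderOf x := by rw [T.ord, T.ord, h3]
    refine Subgroup.mem_normalizer_fintype fun n hn => ?_
    rw [← h2 _ h6] at hn
    obtain ⟨i, rfl⟩ := hn
    rw [← conj_zpow, h5]
    exact Subgroup.zpow_mem _ (Subgroup.npow_mem_zpowers x _) _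
  rw [Nat.totient, ← Nat.card_eq_finsetCard, ← Nat.card_prod, ← Nat.card_prod]
  refine Nat.card_le_card_of_injective (fun p : G × S => (f p, (⟨_, h4 p⟩ : normalizer (zpowers x : Set G)))) ?_
  rintro ⟨g, j⟩ ⟨g', j'⟩ e
  obtain ⟨h5, h6⟩ := Prod.mk.inj e
  have h7 : (c (f (g, j)))⁻¹ * g = (c (f (g', j')))⁻¹ * g' := congrArg Subtype.val h6
  rw [h5, mul_right_inj] at h7
  subst h7
  have h8 : g * x ^ j.1 * g⁻¹ = g * x ^ j'.1 * g⁻¹ := congrArg Subtype.val h5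
  rw [mul_left_inj, mul_right_inj] at h8
  exact Prod.ext rfl (Subtype.ext (pow_injOn_Iio_orderOf (Finset.mem_range.1 (Finset.mem_filter.1 j.2).1)
    (Finset.mem_range.1 (Finset.mem_filter.1 j'.2).1) h8))

/-- **the normalizer of the cyclic subgroup** -/
theorem KapT.of_norm [Finite G] (hm : T.Mass) {t m U f : ℕ} (h : Bnd T t U) (h1 : look (D.pw t) 1 = t)
    (hf : (D.ord t).totient = f) (hU : D.cnt t * Nat.gcd (U * f) D.N ≤ m * (D.N * f)) : KapT T t m := by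
  rintro x rfl
  have h2 := card_RC_norm x h1
  have h3 : Nat.card (normalizer (zpowers x : Set G)) ∣ Nat.gcd (U * f) D.N :=
    Nat.dvd_gcd ((card_norm_dvd x).trans (by rw [T.ord, hf]; exact Nat.mul_dvd_mul_right (h x rfl) f))
      (hm.1 ▸ Subgroup.card_subgroup_dvd_card _)
  have h4 : 0 < Nat.gcd (U * f) D.N := Nat.gcd_pos_of_pos_right _ (hm.1 ▸ Nat.card_pos)
  rw [T.ord, hf, hm.1] at h2
  refine Nat.le_of_mul_le_mul_right (hU.trans ?_) h4
  rw [mul_assoc]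
  exact Nat.mul_le_mul_left _ (h2.trans (Nat.mul_le_mul_left _ (Nat.le_of_dvd h4 h3)))

/-- the step `(t, p, e)` over a single class -/
noncomputable def okS (D : Dat) (O : List ℕ) (s : ℕ × ℕ × ℕ) : Bool :=
  isPr s.2.1 && D.ord s.1 == D.ord s.1 / s.2.1 ^ s.2.2 * s.2.1 ^ s.2.2 && D.ord s.1 / s.2.1 ^ s.2.2 % s.2.1 != 0 &&
    decide (D.pwf s.1 (s.2.1 ^ s.2.2) ∈ O) &&
    D.N % (D.cnt (D.pwf s.1 (s.2.1 ^ s.2.2)) * s.2.1 ^ (s.2.2 + 1)) != 0

theorem rat_of_okS [Finite G] (hm : T.Mass) {O : List ℕ} (hO : ∀ s ∈ O, One T s) {s : ℕ × ℕ × ℕ}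
    (h : okS D O s = true) : RatT T s.1 := by
  simp only [okS, Bool.and_eq_true, beq_iff_eq, bne_iff_ne, decide_eq_true_eq] at h
  obtain ⟨⟨⟨⟨h1, h2⟩, h3⟩, h4⟩, h5⟩ := h
  exact RatT.syl (isPr_spec h1) h2 (fun h6 => h3 (Nat.mod_eq_zero_of_dvd h6)) rfl (RatT.of_one hm (hO _ h4))
    fun y hy => (hO _ h4).not_dvd hm (fun h6 => h5 (Nat.mod_eq_zero_of_dvd h6)) hy

/-- every type is a class, of prime order, has a step, is in `X`, or has a multiplier -/
noncomputable def okK (D : Dat) (O : List ℕ) (S : List (ℕ × ℕ × ℕ)) (X : List ℕ) (L : List (ℕ × ℕ)) : Bool :=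
  S.all (okS D O) && (List.range D.n).all fun t =>
    decide (t ∈ O) || decide (t ∈ S.map Prod.fst) || decide (t ∈ X) || decide (t ∈ L.map Prod.fst) || isPr (D.ord t)

/-- **the assembly** -/
theorem kap_of_chk [Finite G] (hm : T.Mass) (hU : Unif T) {O : List ℕ} (hO : ∀ s ∈ O, One T s)
    (S : List (ℕ × ℕ × ℕ)) {X : List ℕ} (hX : ∀ t ∈ X, KapT T t 1) {L : List (ℕ × ℕ)}
    (hL : ∀ p ∈ L, KapT T p.1 p.2) (h : okK D O S X L = true) : Kap T L := by
  simp only [okK, Bool.and_eq_true, List.all_eq_true, List.mem_range, Bool.or_eq_true, decide_eq_true_eq] at h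
  refine kap_of hL fun t ht h1 => ?_
  rcases h.2 t ht with (((h2 | h2) | h2) | h2) | h2
  · exact (RatT.of_one hm (hO t h2)).kap hm
  · obtain ⟨s, hs, rfl⟩ := List.mem_map.1 h2
    exact (rat_of_okS hm hO (h.1 s hs)).kap hm
  · exact hX t h2
  · exact absurd h2 h1
  · exact (RatT.of_unif hU (isPr_spec h2)).kap hm

/-- the types which are not in the list -/
def cpl (D : Dat) (S : List ℕ) : List ℕ := (List.range D.n).filter fun t => decide (t ∉ S)

end Cfsg.Agent.N2.SpK
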